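import Mathlib
import Cfsg.Prelude
import Cfsg.Agent.Lib.Helper72.Bar
import Cfsg.Agent.Lib.Helper48.FF1

set_option autoImplicit false

/-! Coprime action modulo a normal subgroup with abelian quotient (helper72). -/

namespace Cfsg.Agent.Lib.Helper72

open Subgroup
open scoped commutatorElement

variable {G : Type*} [Group G]

theorem le_normalizer_commutator {A H K : Subgroup G} (hH : A ≤ normalizer (H : Set G))
    (hK : A ≤ normalizer (K : Set G)) : A ≤ normalizer ((⁅H, K⁆ : Subgroup G) : Set G) := by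
  rw [Subgroup.commutator_def, le_normalizer_closure_iff]
  rintro a ha _ ⟨h, hh, k, hk, rfl⟩
  apply Subgroup.subset_closure
  refine ⟨a * h * a⁻¹, le_normalizer_iff.1 hH a ha h hh, a * k * a⁻¹,
    le_normalizer_iff.1 hK a ha k hk, ?_⟩
  simp only [commutatorElement_def]
  group

theorem pow_eq_one_of_mem {H : Subgroup G} [Finite H] {x : G} (hx : x ∈ H) :
    x ^ Nat.card H = 1 := by
  have : (⟨x, hx⟩ : H) ^ Nat.card H = 1 := pow_card_eq_one'
  exact congrArg Subtype.val this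

theorem eq_one_of_pow_coprime {H : Subgroup G} [Finite H] {x : G} (hx : x ∈ H) {n : ℕ}
    (hcop : (Nat.card H).Coprime n) (h : x ^ n = 1) : x = 1 := by
  have h1 := pow_eq_one_of_mem hx
  have h3 := pow_gcd_eq_one.mpr ⟨h1, h⟩
  rwa [Nat.Coprime.gcd_eq_one hcop, pow_one] at h3

/-- **Lemma C**: `T = [T, A]`, coprime action, `T/N` abelian: an element of `T` fixed by `A`
modulo `N` lies in `N`. -/
theorem mem_of_commutator_mem [Finite G] {T A N : Subgroup G} (hNT : N ≤ T)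
    (hAT : A ≤ normalizer (T : Set G)) (hAN : A ≤ normalizer (N : Set G)) (hTT : ⁅T, T⁆ ≤ N)
    (hcop : (Nat.card T).Coprime (Nat.card A)) (hTA : ⁅T, A⁆ = T) {u : G} (hu : u ∈ T)
    (huA : ∀ a ∈ A, ⁅u, a⁆ ∈ N) : u ∈ N := by
  have hTN : T ≤ normalizer (N : Set G) :=
    le_normalizer_iff_commutator_le_left.2 ((commutator_mono hNT le_rfl).trans hTT)
  have hc : IsMulCommutative (Bar.img N T) := Bar.isMulCommutative_img hTT
  have hn : Bar.img N A ≤ normalizer (Bar.img N T : Set (Bar.QG N)) := Bar.img_le_normalizer hAT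
  have hcop' : ∀ v ∈ Bar.img N T, v ^ Nat.card (Bar.img N A) = 1 → v = 1 := by
    intro v hv h
    refine eq_one_of_pow_coprime hv ?_ h
    exact Nat.Coprime.coprime_dvd_left (Bar.card_img_dvd hTN)
      (Nat.Coprime.coprime_dvd_right (Bar.card_img_dvd hAN) hcop)
  have key := Cfsg.Agent.Lib.Helper48.commutator_inf_centralizer_eq_bot hc hn hcop'
  rw [← Bar.img_commutator hTN hAN, hTA] at key
  have h1 : Bar.pr N ⟨u, hTN hu⟩ ∈ Bar.img N T ⊓ centralizer (Bar.img N A : Set (Bar.QG N)) := by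
    refine mem_inf.2 ⟨Bar.pr_mem_img _ hu, ?_⟩
    rw [mem_centralizer_iff]
    intro y hy
    obtain ⟨a, haN, ha, rfl⟩ := Bar.mem_img.1 hy
    have h2 : Bar.pr N (⟨u, hTN hu⟩ * ⟨a, haN⟩ * ⟨u, hTN hu⟩⁻¹ * ⟨a, haN⟩⁻¹) = 1 :=
      (Bar.pr_eq_one_iff (g := u * a * u⁻¹ * a⁻¹) _).2 (huA a ha)
    rw [map_mul, map_mul, map_mul, map_inv, map_inv] at h2
    have h3 := mul_inv_eq_one.1 h2
    exact (mul_inv_eq_iff_eq_mul.1 h3).symm
  rw [key, mem_bot] at h1
  exact (Bar.pr_eq_one_iff _).1 h1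

/-- `T = [T, A]`, coprime action, `T/N` abelian: `C_T(A) ≤ N`. -/
theorem inf_centralizer_le [Finite G] {T A N : Subgroup G} (hNT : N ≤ T)
    (hAT : A ≤ normalizer (T : Set G)) (hAN : A ≤ normalizer (N : Set G)) (hTT : ⁅T, T⁆ ≤ N)
    (hcop : (Nat.card T).Coprime (Nat.card A)) (hTA : ⁅T, A⁆ = T) :
    T ⊓ centralizer (A : Set G) ≤ N := by
  intro u hu
  refine mem_of_commutator_mem hNT hAT hAN hTT hcop hTA hu.1 ?_
  intro a ha
  have : ⁅u, a⁆ = 1 := by
    rw [commutatorElement_eq_one_iff_mul_comm]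
    exact ((mem_centralizer_iff.1 hu.2) a ha).symm
  rw [this]
  exact N.one_mem

end Cfsg.Agent.Lib.Helper72
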