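import Mathlib
import Cfsg.Prelude
import Cfsg.Agent.S3703

set_option autoImplicit false

/-! Ambient form of the weak Frobenius fixed point lemma (helper72). -/

namespace Cfsg.Agent.Lib.Helper72

open Subgroup
open scoped commutatorElement

variable {G : Type*} [Group G]

theorem mem_centralizer_of_commute_gen {X : Subgroup G} {r : ℕ} [Fact r.Prime]
    (hX : Nat.card X = r) {x : G} (hx : x ∈ X) (hx1 : x ≠ 1) {u : G} (h : u * x = x * u) :
    u ∈ centralizer (X : Set G) := by
  rw [mem_centralizer_iff]
  intro x' hx'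
  have h1 : (⟨x', hx'⟩ : X) ∈ zpowers (⟨x, hx⟩ : X) :=
    mem_zpowers_of_prime_card hX (fun h => hx1 (congrArg Subtype.val h))
  obtain ⟨k, hk⟩ := mem_zpowers_iff.1 h1
  have h2 : x ^ k = x' := by
    have := congrArg Subtype.val hk
    simpa using this
  rw [← h2]
  have : Commute u x := h
  exact (this.zpow_right k).eq.symm

theorem orderOf_eq_of_prime_card {X : Subgroup G} {r : ℕ} [hr : Fact r.Prime]
    (hX : Nat.card X = r) {x : G} (hx : x ∈ X) (hx1 : x ≠ 1) : orderOf x = r := by
  have h1 : orderOf (⟨x, hx⟩ : X) ∣ Nat.card X := orderOf_dvd_natCard _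
  rw [Subgroup.orderOf_mk, hX] at h1
  rcases (Nat.Prime.eq_one_or_self_of_dvd hr.out _ h1) with h | h
  · exact absurd (orderOf_eq_one_iff.1 h) hx1
  · exact h

open scoped IsMulCommutative in
/-- `X` of prime order acting fixed point freely on `Q`, `QX` acting on the abelian group `V` with
`C_V(X) = 1`: then `Q` centralizes `v ^ |Q|` for all `v ∈ V`. -/
theorem pow_card_mem_centralizer {X Q V : Subgroup G} [Finite Q] {r : ℕ} [hr : Fact r.Prime]
    (hX : Nat.card X = r) (hXQ : X ≤ normalizer (Q : Set G))
    (hQX : Q ⊓ centralizer (X : Set G) = ⊥) (hVc : IsMulCommutative V)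
    (hXV : X ≤ normalizer (V : Set G)) (hQV : Q ≤ normalizer (V : Set G))
    (hCV : V ⊓ centralizer (X : Set G) = ⊥) {v : G} (hv : v ∈ V) :
    v ^ Nat.card Q ∈ centralizer (Q : Set G) := by
  have hXne : X ≠ ⊥ := by
    intro h
    rw [h, card_bot] at hX
    exact hr.out.one_lt.ne hX
  obtain ⟨x, hx, hx1⟩ : ∃ x ∈ X, x ≠ 1 := by
    by_contra hcon
    push Not at hcon
    exact hXne ((eq_bot_iff_forall X).2 hcon)
  have hord := orderOf_eq_of_prime_card hX hx hx1
  let y : normalizer (V : Set G) := ⟨x, hXV hx⟩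
  have hyj : ∀ j : ℕ, ((y ^ j : normalizer (V : Set G)) : G) = x ^ j := fun j => by simp [y]
  have hcard : Nat.card (Q.subgroupOf (normalizer (V : Set G))) = Nat.card Q :=
    Nat.card_congr (subgroupOfEquivOfLe hQV).toEquiv
  haveI : Finite (Q.subgroupOf (normalizer (V : Set G))) :=
    Finite.of_equiv _ (subgroupOfEquivOfLe hQV).toEquiv.symm
  have key := Cfsg.Agent.S3703.fixed_of_trace (V.normalizerMonoidHom)
    (Q.subgroupOf (normalizer (V : Set G))) y r hr.out.pos
    (by
      intro u hu
      rw [mem_subgroupOf] at hu ⊢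
      exact le_normalizer_iff.1 hXQ x hx _ hu)
    (by
      intro j hj0 hjr u hu hc
      rw [mem_subgroupOf] at hu
      have h1 : (u : G) * x ^ j = x ^ j * u := by
        have := congrArg Subtype.val hc
        simpa [hyj] using this
      have h2 : x ^ j ≠ 1 := pow_ne_one_of_lt_orderOf hj0.ne' (hord ▸ hjr)
      have h3 := mem_centralizer_of_commute_gen hX (X.pow_mem hx j) h2 h1
      have h4 : (u : G) ∈ Q ⊓ centralizer (X : Set G) := ⟨hu, h3⟩
      rw [hQX, mem_bot] at h4
      exact Subtype.ext h4)
    (by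
      intro w
      set t : V := ∏ j ∈ Finset.range r, V.normalizerMonoidHom (y ^ j) w with ht
      have h1 : V.normalizerMonoidHom y t = t := by
        rw [ht, map_prod]
        have h2 : ∀ j, V.normalizerMonoidHom y (V.normalizerMonoidHom (y ^ j) w) =
            V.normalizerMonoidHom (y ^ (j + 1)) w := by
          intro j
          rw [pow_succ', map_mul, MulAut.mul_apply]
        simp_rw [h2]
        have h3 := Finset.prod_range_succ (fun j => V.normalizerMonoidHom (y ^ j) w) r
        have h4 := Finset.prod_range_succ' (fun j => V.normalizerMonoidHom (y ^ j) w) r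
        have h5 : y ^ r = 1 := Subtype.ext (by rw [hyj, ← hord, pow_orderOf_eq_one]; rfl)
        rw [h3] at h4
        simp only [h5, pow_zero] at h4
        exact (mul_right_cancel h4).symm
      have h2 : (t : G) ∈ V ⊓ centralizer (X : Set G) := by
        refine ⟨t.2, mem_centralizer_of_commute_gen hX hx hx1 ?_⟩
        have := congrArg Subtype.val h1
        have h3 : x * (t : G) * x⁻¹ = t := this
        calc (t : G) * x = (x * (t : G) * x⁻¹) * x := by rw [h3]
          _ = x * t := by group
      rw [hCV, mem_bot] at h2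
      exact Subtype.ext h2)
    ⟨v, hv⟩
  rw [mem_centralizer_iff]
  intro u hu
  have h1 := key ⟨u, hQV hu⟩ (mem_subgroupOf.2 hu)
  rw [hcard] at h1
  have h2 := congrArg Subtype.val h1
  have h3 : u * v ^ Nat.card Q * u⁻¹ = v ^ Nat.card Q := by simpa using h2
  calc u * v ^ Nat.card Q = (u * v ^ Nat.card Q * u⁻¹) * u := by group
    _ = v ^ Nat.card Q * u := by rw [h3]

end Cfsg.Agent.Lib.Helper72
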