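import Mathlib

set_option autoImplicit false

namespace Cfsg.Agent.Lib.Helper72

/-- generic: any two vertices have a common "equal or adjacent" vertex, and some two distinct
vertices are not adjacent: connected of diameter `2`. -/
theorem connected_diam_two {V : Type*} [Finite V] [Nonempty V] (Γ : SimpleGraph V)
    (h2 : ∀ a b : V, ∃ z, (a = z ∨ Γ.Adj a z) ∧ (z = b ∨ Γ.Adj z b))
    (h3 : ∃ a b : V, a ≠ b ∧ ¬ Γ.Adj a b) : Γ.Connected ∧ Γ.diam = 2 := by
  have hw : ∀ a b : V, ∃ w : Γ.Walk a b, w.length ≤ 2 := by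
    intro a b
    obtain ⟨z, h1 | h1, h2' | h2'⟩ := h2 a b
    · subst h1; subst h2'; exact ⟨SimpleGraph.Walk.nil, by simp⟩
    · subst h1; exact ⟨h2'.toWalk, by simp⟩
    · subst h2'; exact ⟨h1.toWalk, by simp⟩
    · exact ⟨SimpleGraph.Walk.cons h1 h2'.toWalk, by simp⟩
  have hconn : Γ.Connected := ⟨fun a b => ⟨(hw a b).choose⟩⟩
  have hne : Γ.ediam ≠ ⊤ := SimpleGraph.connected_iff_ediam_ne_top.1 hconn
  refine ⟨hconn, le_antisymm ?_ ?_⟩
  · obtain ⟨u, v, huv⟩ := Γ.exists_dist_eq_diam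
    rw [← huv]
    obtain ⟨w, hw'⟩ := hw u v
    exact (SimpleGraph.dist_le w).trans hw'
  · obtain ⟨a, b, hab, hadj⟩ := h3
    refine le_trans ?_ (SimpleGraph.dist_le_diam hne (u := a) (v := b))
    have h0 : Γ.dist a b ≠ 0 := fun h => hab ((hconn.preconnected a b).dist_eq_zero_iff.1 h)
    have h1 : Γ.dist a b ≠ 1 := fun h => hadj (SimpleGraph.dist_eq_one_iff_adj.1 h)
    omega

theorem graph_wrapper {G : Type*} [Group G] [Finite G] (t : G)
    (h2 : ∀ x y : G, IsConj t x → IsConj t y →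
      ∃ z, IsConj t z ∧ Odd (orderOf (x * z)) ∧ Odd (orderOf (z * y)))
    (h3 : ∃ x y : G, IsConj t x ∧ IsConj t y ∧ x ≠ y ∧ ¬ Odd (orderOf (x * y))) :
    (SimpleGraph.fromRel fun x y : {x : G // IsConj t x} => Odd (orderOf (x.1 * y.1))).Connected ∧
      (SimpleGraph.fromRel fun x y : {x : G // IsConj t x} => Odd (orderOf (x.1 * y.1))).diam = 2 := by
  have : Nonempty {x : G // IsConj t x} := ⟨⟨t, IsConj.refl t⟩⟩
  apply connected_diam_two
  · intro a b
    obtain ⟨z, hz, h1, h2'⟩ := h2 a.1 b.1 a.2 b.2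
    refine ⟨⟨z, hz⟩, ?_, ?_⟩
    · by_cases h : a = ⟨z, hz⟩
      · exact Or.inl h
      · exact Or.inr ((SimpleGraph.fromRel_adj _ _ _).2 ⟨h, Or.inl h1⟩)
    · by_cases h : (⟨z, hz⟩ : {x : G // IsConj t x}) = b
      · exact Or.inl h
      · exact Or.inr ((SimpleGraph.fromRel_adj _ _ _).2 ⟨h, Or.inl h2'⟩)
  · obtain ⟨x, y, hx, hy, hxy, hodd⟩ := h3
    refine ⟨⟨x, hx⟩, ⟨y, hy⟩, fun h => hxy (congrArg Subtype.val h), fun h => ?_⟩
    rcases ((SimpleGraph.fromRel_adj _ _ _).1 h).2 with h | h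
    · exact hodd h
    · apply hodd
      have e : x * y = MulAut.conj x (y * x) := by simp [MulAut.conj_apply, mul_assoc]
      rw [e, MulEquiv.orderOf_eq]
      exact h

end Cfsg.Agent.Lib.Helper72
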