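import Mathlib
import Cfsg.Prelude
import Cfsg.Agent.Lib.Helper72.Bar
import Cfsg.Agent.Lib.Helper72.CoprimeC
import Cfsg.Agent.Lib.Helper22.Generation2

set_option autoImplicit false

/-! Configuration `X` (order `r`) acting on a `q`-group `Q`, both acting on an elementary abelian
`p`-group `V` with `C_V(X) = 1` (helper72): basic facts and passage to `N(D)/D`, `D = C_Q(V)`. -/

namespace Cfsg.Agent.Lib.Helper72

open Subgroup
open scoped commutatorElement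

universe u

variable {G : Type u} [Group G]

/-- the configuration. -/
structure Cfg (p q r : ℕ) (X Q V : Subgroup G) : Prop where
  hX : Nat.card X = r
  hQ : IsPGroup q Q
  hXQ : X ≤ normalizer (Q : Set G)
  hV : Cfsg.IsElementaryAbelian p V
  hXV : X ≤ normalizer (V : Set G)
  hQV : Q ≤ normalizer (V : Set G)
  hCV : V ⊓ centralizer (X : Set G) = ⊥
  hexc : q = 2 → (∃ n : ℕ, r = 2 ^ n + 1) → IsMulCommutative Q

namespace Cfg

variable {p q r : ℕ} {X Q V : Subgroup G}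

theorem isPGroupV (h : Cfg p q r X Q V) : IsPGroup p V :=
  Cfsg.Agent.Lib.Helper22.isPGroup_of_pow_eq_one h.hV.2

theorem isPGroupX (h : Cfg p q r X Q V) : IsPGroup r X :=
  IsPGroup.of_card (n := 1) (by rw [h.hX, pow_one])

theorem commV (h : Cfg p q r X Q V) : ∀ x ∈ V, ∀ y ∈ V, x * y = y * x := by
  intro x hx y hy
  have := h.hV.1
  exact congrArg Subtype.val (mul_comm' (⟨x, hx⟩ : V) ⟨y, hy⟩)

theorem VQ [Fact p.Prime] [Fact q.Prime] (h : Cfg p q r X Q V) (hpq : p ≠ q) : V ⊓ Q = ⊥ :=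
  (IsPGroup.disjoint_of_ne p q hpq V Q h.isPGroupV h.hQ).eq_bot

theorem XQ [Fact r.Prime] [Fact q.Prime] (h : Cfg p q r X Q V) (hqr : q ≠ r) : X ⊓ Q = ⊥ :=
  (IsPGroup.disjoint_of_ne r q hqr.symm X Q h.isPGroupX h.hQ).eq_bot

/-- `D = C_Q(V)`. -/
theorem le_normalizer_D (h : Cfg p q r X Q V) :
    X ≤ normalizer ((Q ⊓ centralizer (V : Set G) : Subgroup G) : Set G) ∧
    Q ≤ normalizer ((Q ⊓ centralizer (V : Set G) : Subgroup G) : Set G) ∧
    V ≤ normalizer ((Q ⊓ centralizer (V : Set G) : Subgroup G) : Set G) := by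
  refine ⟨Cfsg.Agent.Lib.Helper22.le_normalizer_inf_centralizer h.hXQ h.hXV,
    Cfsg.Agent.Lib.Helper22.le_normalizer_inf_centralizer le_normalizer h.hQV, ?_⟩
  rw [le_normalizer_iff]
  intro v hv d hd
  have : v * d * v⁻¹ = d := by
    rw [(mem_centralizer_iff.1 hd.2) v hv]; group
  rw [this]; exact hd

theorem bar [Finite G] [Fact p.Prime] [Fact q.Prime] [Fact r.Prime] (h : Cfg p q r X Q V)
    (hpq : p ≠ q) (hqr : q ≠ r) :
    Cfg p q r (Bar.img (Q ⊓ centralizer (V : Set G)) X) (Bar.img (Q ⊓ centralizer (V : Set G)) Q)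
      (Bar.img (Q ⊓ centralizer (V : Set G)) V) := by
  obtain ⟨hXD, hQD, hVD⟩ := h.le_normalizer_D
  set D := Q ⊓ centralizer (V : Set G) with hD
  have hVD0 : ∀ g ∈ V, g ∈ D → g = 1 := by
    intro g hg hgD
    have : g ∈ V ⊓ Q := ⟨hg, hgD.1⟩
    rw [h.VQ hpq] at this
    exact mem_bot.1 this
  refine ⟨?_, Bar.isPGroup_img h.hQ, Bar.img_le_normalizer h.hXQ, ⟨?_, ?_⟩,
    Bar.img_le_normalizer h.hXV, Bar.img_le_normalizer h.hQV, ?_, ?_⟩
  · rw [Bar.card_img_of_disjoint hXD, h.hX]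
    rw [eq_bot_iff, ← h.XQ hqr]
    exact inf_le_inf_left _ inf_le_left
  · apply Bar.isMulCommutative_img
    rw [commutator_le]
    intro a ha b hb
    have : ⁅a, b⁆ = 1 := by
      rw [commutatorElement_eq_one_iff_mul_comm]; exact h.commV a ha b hb
    rw [this]; exact D.one_mem
  · intro y hy
    obtain ⟨v, hN, hv, rfl⟩ := Bar.mem_img.1 hy
    rw [← map_pow]
    have : (⟨v, hN⟩ : normalizer (D : Set G)) ^ p = 1 := Subtype.ext (by simpa using h.hV.2 v hv)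
    rw [this, map_one]
  · rw [eq_bot_iff]
    intro y hy
    obtain ⟨hy1, hy2⟩ := mem_inf.1 hy
    obtain ⟨v, hN, hv, rfl⟩ := Bar.mem_img.1 hy1
    rw [mem_bot]
    have hvC : v ∈ V ⊓ centralizer (X : Set G) := by
      refine mem_inf.2 ⟨hv, ?_⟩
      rw [mem_centralizer_iff]
      intro x hx
      have h1 := (mem_centralizer_iff.1 hy2) (Bar.pr D ⟨x, hXD hx⟩) (Bar.pr_mem_img _ hx)
      have h2 : Bar.pr D (⟨x, hXD hx⟩ * ⟨v, hN⟩ * ⟨x, hXD hx⟩⁻¹ * ⟨v, hN⟩⁻¹) = 1 := by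
        rw [map_mul, map_mul, map_mul, map_inv, map_inv, h1]; group
      have h3 : x * v * x⁻¹ * v⁻¹ ∈ D := (Bar.pr_eq_one_iff (g := x * v * x⁻¹ * v⁻¹) _).1 h2
      have h4 : x * v * x⁻¹ * v⁻¹ ∈ V :=
        V.mul_mem (le_normalizer_iff.1 h.hXV x hx v hv) (V.inv_mem hv)
      have h5 := hVD0 _ h4 h3
      have h6 := mul_inv_eq_one.1 h5
      exact mul_inv_eq_iff_eq_mul.1 h6
    rw [h.hCV, mem_bot] at hvC
    subst hvC
    exact (Bar.pr_eq_one_iff _).2 D.one_mem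
  · intro h1 h2
    have := h.hexc h1 h2
    apply Bar.isMulCommutative_img
    rw [commutator_le]
    intro a ha b hb
    have : ⁅a, b⁆ = 1 := by
      rw [commutatorElement_eq_one_iff_mul_comm]
      exact congrArg Subtype.val (mul_comm' (⟨a, ha⟩ : Q) ⟨b, hb⟩)
    rw [this]; exact D.one_mem

/-- pulling the conclusion back from `N(D)/D`. -/
theorem of_bar [Finite G] [Fact p.Prime] [Fact q.Prime] (h : Cfg p q r X Q V) (hpq : p ≠ q)
    (hc : ⁅Bar.img (Q ⊓ centralizer (V : Set G)) Q, Bar.img (Q ⊓ centralizer (V : Set G)) X⁆ ≤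
      centralizer (Bar.img (Q ⊓ centralizer (V : Set G)) V : Set (Bar.QG _))) :
    ⁅Q, X⁆ ≤ centralizer (V : Set G) := by
  obtain ⟨hXD, hQD, hVD⟩ := h.le_normalizer_D
  set D := Q ⊓ centralizer (V : Set G) with hD
  rw [← Bar.img_commutator hQD hXD] at hc
  have hQX : ⁅Q, X⁆ ≤ Q := le_normalizer_iff_commutator_le_left.1 h.hXQ
  intro g hg
  rw [mem_centralizer_iff]
  intro v hv
  have hgN : g ∈ normalizer (D : Set G) := hQD (hQX hg)
  have h1 := (mem_centralizer_iff.1 (hc (Bar.pr_mem_img hgN hg))) (Bar.pr D ⟨v, hVD hv⟩)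
    (Bar.pr_mem_img _ hv)
  have h2 : Bar.pr D (⟨g, hgN⟩ * ⟨v, hVD hv⟩ * ⟨g, hgN⟩⁻¹ * ⟨v, hVD hv⟩⁻¹) = 1 := by
    rw [map_mul, map_mul, map_mul, map_inv, map_inv, ← h1]; group
  have h3 : g * v * g⁻¹ * v⁻¹ ∈ D := (Bar.pr_eq_one_iff (g := g * v * g⁻¹ * v⁻¹) _).1 h2
  have h4 : g * v * g⁻¹ * v⁻¹ ∈ V :=
    V.mul_mem (le_normalizer_iff.1 h.hQV g (hQX hg) v hv) (V.inv_mem hv)
  have h5 : g * v * g⁻¹ * v⁻¹ ∈ V ⊓ Q := ⟨h4, h3.1⟩
  rw [h.VQ hpq, mem_bot] at h5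
  have h6 := mul_inv_eq_one.1 h5
  exact (mul_inv_eq_iff_eq_mul.1 h6).symm

end Cfg

end Cfsg.Agent.Lib.Helper72
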