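import Mathlib
import Cfsg.Agent.Lib.Helper83.McBase
import Cfsg.Agent.Lib.Helper83.McTv

/-! S5075 farm (helper83), piece G0 : order `p` + rank one => transvection. -/

set_option autoImplicit false

namespace Cfsg.Agent.Lib.Helper72.Mc

open Module Cfsg.Agent.Lib.Helper83.Mc

variable {p : ℕ} [Fact p.Prime] {V : Type*} [AddCommGroup V] [Module (ZMod p) V]

theorem tv_of_order [Finite V] (t : V ≃ₗ[ZMod p] V) (ho : orderOf t = p)
    (hr : Module.finrank (ZMod p) ↥(LinearMap.ker ((t : V →ₗ[ZMod p] V) - LinearMap.id)) + 1 =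
        Module.finrank (ZMod p) V) :
    ∃ (u : V) (φ : Dual (ZMod p) V), u ≠ 0 ∧ φ ≠ 0 ∧ φ u = 0 ∧ ∀ x, t x = x + φ x • u := by
  set n : V →ₗ[ZMod p] V := (t : V →ₗ[ZMod p] V) - LinearMap.id with hn
  have hnx : ∀ x, n x = t x - x := fun x => rfl
  have hrk : Module.finrank (ZMod p) ↥(LinearMap.range n) = 1 := by
    have := LinearMap.finrank_range_add_finrank_ker n
    omega
  obtain ⟨⟨u, hu⟩, hu0, hspan⟩ := finrank_eq_one_iff'.1 hrk
  have hu0' : u ≠ 0 := fun h => hu0 (Subtype.ext h)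
  obtain ⟨ψ, hψ⟩ : ∃ ψ : Dual (ZMod p) V, ψ u ≠ 0 := by
    by_contra hcon
    push Not at hcon
    exact hu0' ((Module.forall_dual_apply_eq_zero_iff (ZMod p) u).1 hcon)
  obtain ⟨φ, hφdef⟩ : ∃ φ : Dual (ZMod p) V, φ = (ψ u)⁻¹ • (ψ ∘ₗ n) := ⟨_, rfl⟩
  have hφ : ∀ x, n x = φ x • u := by
    intro x
    obtain ⟨c, hc⟩ := hspan ⟨n x, LinearMap.mem_range_self n x⟩
    have hc' : c • u = n x := congrArg Subtype.val hc
    rw [hφdef]
    simp only [LinearMap.smul_apply, LinearMap.comp_apply, smul_eq_mul]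
    rw [← hc', map_smul, smul_eq_mul, mul_comm c, ← mul_assoc, inv_mul_cancel₀ hψ, one_mul]
  have htx : ∀ x, t x = x + φ x • u := by
    intro x
    rw [← hφ, hnx]; abel
  have hφ0 : φ ≠ 0 := by
    rintro rfl
    obtain ⟨x₀, hx₀⟩ := hu
    apply hu0'
    rw [← hx₀, hφ]; simp
  refine ⟨u, φ, hu0', hφ0, ?_, htx⟩
  have hpow : ∀ k : ℕ, (t ^ k) u = (1 + φ u) ^ k • u := by
    intro k
    induction k with
    | zero => simp
    | succ k ih =>
      rw [pow_succ', LinearEquiv.mul_apply, ih, map_smul, htx u, pow_succ, mul_smul, add_smul,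
        one_smul]
  have h1 := hpow p
  have htp : t ^ p = 1 := by
    have := pow_orderOf_eq_one t
    rwa [ho] at this
  rw [htp, ZMod.pow_card, add_smul, one_smul] at h1
  have h2 : φ u • u = 0 := by
    have : u = u + φ u • u := h1
    exact (left_eq_add.1 this)
  exact (smul_eq_zero.1 h2).resolve_right hu0'

end Cfsg.Agent.Lib.Helper72.Mc
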