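import Mathlib
import Cfsg.Prelude.Def_Solvable
import Cfsg.Agent.Lib.Helper83.McBase
import Cfsg.Agent.Lib.Helper83.McTv

/-! S5075 farm (helper83), piece G2b : the stabiliser of a chain is a normal `p`-subgroup. -/

set_option autoImplicit false

namespace Cfsg.Agent.Lib.Helper72.Mc

open Module Cfsg.Agent.Lib.Helper83.Mc

variable {p : ℕ} [Fact p.Prime] {V : Type*} [AddCommGroup V] [Module (ZMod p) V]

/-- power formula for a unipotent map of class `3`. -/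
theorem g2b_pow_apply (h : V ≃ₗ[ZMod p] V)
    (h3 : ∀ x, h (h (h x - x) - (h x - x)) = h (h x - x) - (h x - x)) (k : ℕ) (x : V) :
    (h ^ k) x = x + k • (h x - x) + (k.choose 2) • (h (h x - x) - (h x - x)) := by
  induction k with
  | zero => simp
  | succ k ih =>
    rw [pow_succ', LinearEquiv.mul_apply, ih, map_add, map_add, map_nsmul, map_nsmul, h3]
    have e1 : h (h x - x) = (h (h x - x) - (h x - x)) + (h x - x) := by abel
    have e2 : (k + 1).choose 2 = k + k.choose 2 := by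
      rw [Nat.choose_succ_succ' k 1, Nat.choose_one_right]
    rw [e2]
    generalize hb : h (h x - x) - (h x - x) = b at e1 ⊢
    rw [e1]
    generalize ha : h x - x = a
    have e3 : h x = a + x := by rw [← ha]; abel
    rw [e3, smul_add, add_smul, add_smul, one_smul]
    abel

theorem g2b_pow_eq_one (hp : Odd p) (h : V ≃ₗ[ZMod p] V)
    (h3 : ∀ x, h (h (h x - x) - (h x - x)) = h (h x - x) - (h x - x)) : h ^ p = 1 := by
  have hpp : p.Prime := Fact.out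
  have hp2 : 2 < p := by
    rcases hpp.eq_two_or_odd' with h2 | _
    · subst h2; exact absurd hp (by decide)
    · have := hpp.two_le
      rcases this.lt_or_eq with h | h
      · exact h
      · subst h; exact absurd hp (by decide)
  have hz : ∀ (m : ℕ) (v : V), p ∣ m → m • v = 0 := by
    intro m v hm
    rw [← Nat.cast_smul_eq_nsmul (ZMod p) m v, (ZMod.natCast_eq_zero_iff m p).2 hm, zero_smul]
  ext x
  rw [g2b_pow_apply h h3, hz p _ dvd_rfl, hz _ _ (hpp.dvd_choose_self (by norm_num) hp2)]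
  simp

theorem unip_of (hp : Odd p) (H : Subgroup (V ≃ₗ[ZMod p] V)) (hOp : Cfsg.pCore p ↥H = ⊥)
    (D M : Submodule (ZMod p) V) (hDM : D ≤ M) (hD : ∀ h ∈ H, ∀ v ∈ D, h v ∈ D)
    (hM : ∀ h ∈ H, ∀ v ∈ M, h v ∈ M) (h : V ≃ₗ[ZMod p] V) (hh : h ∈ H)
    (c1 : ∀ x, h x - x ∈ M) (c2 : ∀ x ∈ M, h x - x ∈ D) (c3 : ∀ x ∈ D, h x = x) : h = 1 := by
  let R : Subgroup ↥H :=
    { carrier := {a | (∀ x, (a : V ≃ₗ[ZMod p] V) x - x ∈ M) ∧
        (∀ x ∈ M, (a : V ≃ₗ[ZMod p] V) x - x ∈ D) ∧ (∀ x ∈ D, (a : V ≃ₗ[ZMod p] V) x = x)}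
      one_mem' := ⟨fun x => by simp, fun x _ => by simp, fun x _ => by simp⟩
      mul_mem' := by
        rintro a b ⟨a1, a2, a3⟩ ⟨b1, b2, b3⟩
        refine ⟨fun x => ?_, fun x hx => ?_, fun x hx => ?_⟩
        · have e : ((a * b : ↥H) : V ≃ₗ[ZMod p] V) x - x
              = ((a : V ≃ₗ[ZMod p] V) ((b : V ≃ₗ[ZMod p] V) x) - (b : V ≃ₗ[ZMod p] V) x)
                + ((b : V ≃ₗ[ZMod p] V) x - x) := by
            simp
          rw [e]; exact M.add_mem (a1 _) (b1 _)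
        · have e : ((a * b : ↥H) : V ≃ₗ[ZMod p] V) x - x
              = ((a : V ≃ₗ[ZMod p] V) ((b : V ≃ₗ[ZMod p] V) x) - (b : V ≃ₗ[ZMod p] V) x)
                + ((b : V ≃ₗ[ZMod p] V) x - x) := by
            simp
          rw [e]; exact D.add_mem (a2 _ (hM b b.2 x hx)) (b2 _ hx)
        · change (a : V ≃ₗ[ZMod p] V) ((b : V ≃ₗ[ZMod p] V) x) = x
          rw [b3 x hx, a3 x hx]
      inv_mem' := by
        rintro a ⟨a1, a2, a3⟩
        have e : ∀ x, ((a⁻¹ : ↥H) : V ≃ₗ[ZMod p] V) x - x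
            = -((a : V ≃ₗ[ZMod p] V) (((a⁻¹ : ↥H) : V ≃ₗ[ZMod p] V) x)
              - ((a⁻¹ : ↥H) : V ≃ₗ[ZMod p] V) x) := by
          intro x; simp
        refine ⟨fun x => ?_, fun x hx => ?_, fun x hx => ?_⟩
        · rw [e]; exact M.neg_mem (a1 _)
        · rw [e]; exact D.neg_mem (a2 _ (hM _ (a⁻¹).2 x hx))
        · calc ((a⁻¹ : ↥H) : V ≃ₗ[ZMod p] V) x
              = ((a⁻¹ : ↥H) : V ≃ₗ[ZMod p] V) ((a : V ≃ₗ[ZMod p] V) x) := by rw [a3 x hx]
            _ = x := by simp }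
  have hRn : R.Normal := by
    refine ⟨?_⟩
    rintro n ⟨n1, n2, n3⟩ g
    have e : ∀ x, ((g * n * g⁻¹ : ↥H) : V ≃ₗ[ZMod p] V) x - x
        = (g : V ≃ₗ[ZMod p] V) ((n : V ≃ₗ[ZMod p] V) (((g⁻¹ : ↥H) : V ≃ₗ[ZMod p] V) x)
            - ((g⁻¹ : ↥H) : V ≃ₗ[ZMod p] V) x) := by
      intro x; simp
    refine ⟨fun x => ?_, fun x hx => ?_, fun x hx => ?_⟩
    · rw [e]; exact hM g g.2 _ (n1 _)
    · rw [e]; exact hD g g.2 _ (n2 _ (hM _ (g⁻¹).2 x hx))
    · have := e x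
      rw [n3 _ (hD _ (g⁻¹).2 x hx), sub_self, map_zero] at this
      exact sub_eq_zero.1 this
  have hRp : IsPGroup p R := by
    rintro ⟨a, a1, a2, a3⟩
    refine ⟨1, ?_⟩
    apply Subtype.ext
    apply Subtype.ext
    rw [pow_one]
    change (a : V ≃ₗ[ZMod p] V) ^ p = 1
    exact g2b_pow_eq_one hp _ (fun x => a3 _ (a2 _ (a1 x)))
  have hle : R ≤ Cfsg.pCore p ↥H := le_sSup ⟨hRn, hRp⟩
  have hmem : (⟨h, hh⟩ : ↥H) ∈ R := ⟨c1, c2, c3⟩
  have := hle hmem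
  rw [hOp, Subgroup.mem_bot] at this
  exact congrArg Subtype.val this

end Cfsg.Agent.Lib.Helper72.Mc
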