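import Mathlib
import Cfsg.Agent.Lib.Helper83.McBase
import Cfsg.Agent.Lib.Helper83.McTv

/-! S5075 farm (helper83), piece G4b : the component induces `SL`. -/

set_option autoImplicit false

namespace Cfsg.Agent.Lib.Helper72.Mc

open Module Cfsg.Agent.Lib.Helper83.Mc

variable {p : ℕ} [Fact p.Prime] {V : Type*} [AddCommGroup V] [Module (ZMod p) V]
variable {H : Subgroup (V ≃ₗ[ZMod p] V)} {C : Set (V × Dual (ZMod p) V)}

theorem rho_SL [Finite V] (hC : IsComp H C)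
    (ρ : ↥(cK C) →* (↥(cM C) ≃ₗ[ZMod p] ↥(cM C)))
    (hρ : ∀ (h : ↥(cK C)) (v : ↥(cM C)), ((ρ h v : ↥(cM C)) : V) = (h : V ≃ₗ[ZMod p] V) (v : V))
    (hsurj : Function.Surjective (cB C))
    (hall : ∀ u φ, cB C φ u = 0 → cA C u φ)
    (hSL : ∀ (G : Subgroup (↥(cM C) ≃ₗ[ZMod p] ↥(cM C))),
      (∀ (f : Dual (ZMod p) ↥(cM C)) (v : ↥(cM C)) (h : f v = 0), LinearEquiv.transvection h ∈ G) →
      ∀ e : ↥(cM C) ≃ₗ[ZMod p] ↥(cM C), LinearMap.det (e : ↥(cM C) →ₗ[ZMod p] ↥(cM C)) = 1 → e ∈ G) :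
    (ρ.range : Set (↥(cM C) ≃ₗ[ZMod p] ↥(cM C))) =
        {f : ↥(cM C) ≃ₗ[ZMod p] ↥(cM C) | LinearMap.det (f : ↥(cM C) →ₗ[ZMod p] ↥(cM C)) = 1} := by
  have hdet : ∀ (g : V ≃ₗ[ZMod p] V) (hg : g ∈ cK C), LinearEquiv.det (ρ ⟨g, hg⟩) = 1 := by
    intro g hg
    induction hg using Subgroup.closure_induction with
    | mem g hg =>
      obtain ⟨x, hx, hgx⟩ := hg
      have h0 : x.2 x.1 = 0 := (hC.sub hx).2.2.1
      have h0' : (x.2 ∘ₗ (cM C).subtype) (⟨x.1, fst_mem_cM hx⟩ : ↥(cM C)) = 0 := h0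
      have e : ρ ⟨g, Subgroup.subset_closure ⟨x, hx, hgx⟩⟩ = LinearEquiv.transvection h0' := by
        ext w
        rw [hρ, LinearEquiv.transvection.apply]
        exact hgx w
      rw [e]
      exact LinearEquiv.transvection.det_eq_one h0'
    | one =>
      have : (⟨1, (cK C).one_mem⟩ : ↥(cK C)) = 1 := rfl
      rw [this, map_one, map_one]
    | mul a b ha hb iha ihb =>
      have : (⟨a * b, (cK C).mul_mem ha hb⟩ : ↥(cK C)) = ⟨a, ha⟩ * ⟨b, hb⟩ := rfl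
      rw [this, map_mul, map_mul, iha, ihb, one_mul]
    | inv a ha iha =>
      have : (⟨a⁻¹, (cK C).inv_mem ha⟩ : ↥(cK C)) = ⟨a, ha⟩⁻¹ := rfl
      rw [this, map_inv, map_inv, iha, inv_one]
  apply Set.Subset.antisymm
  · rintro _ ⟨h, rfl⟩
    have := hdet h.1 h.2
    have h2 := congrArg Units.val this
    rw [LinearEquiv.coe_det, Units.val_one] at h2
    exact h2
  · intro e he
    refine hSL ρ.range ?_ e he
    intro f v h
    obtain ⟨φ, rfl⟩ := hsurj f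
    obtain ⟨-, g, hg, hgx⟩ := hall v φ h
    refine ⟨⟨g, hg⟩, ?_⟩
    ext w
    rw [hρ, LinearEquiv.transvection.apply]
    exact hgx w

end Cfsg.Agent.Lib.Helper72.Mc
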