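import Mathlib
import Cfsg.Agent.Lib.Helper83.McBase
import Cfsg.Agent.Lib.Helper83.McTv

/-! S5075 farm (helper83), piece G5a : direct sum from orthogonal perfect pairs. -/

set_option autoImplicit false

namespace Cfsg.Agent.Lib.Helper72.Mc

open Module Cfsg.Agent.Lib.Helper83.Mc

variable {p : ℕ} [Fact p.Prime] {V : Type*} [AddCommGroup V] [Module (ZMod p) V]

/-- a pairing nondegenerate on both sides is perfect: projection of `v` to `M` along `N^⊥`. -/
theorem g5a_proj [Finite V] (M : Submodule (ZMod p) V) (N : Submodule (ZMod p) (Dual (ZMod p) V))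
    (h2 : ∀ u ∈ M, (∀ φ ∈ N, φ u = 0) → u = 0) (h3 : ∀ φ ∈ N, (∀ u ∈ M, φ u = 0) → φ = 0) (v : V) :
    ∃ m ∈ M, ∀ φ ∈ N, φ (v - m) = 0 := by
  let e : ↥M →ₗ[ZMod p] Dual (ZMod p) ↥N :=
    N.subtype.dualMap ∘ₗ Dual.eval (ZMod p) V ∘ₗ M.subtype
  let f : ↥N →ₗ[ZMod p] Dual (ZMod p) ↥M := M.subtype.dualMap ∘ₗ N.subtype
  have he : Function.Injective e := by
    rw [injective_iff_map_eq_zero]
    intro m hm
    apply Subtype.ext
    apply h2 m m.2
    intro φ hφ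
    exact LinearMap.congr_fun hm ⟨φ, hφ⟩
  have hf : Function.Injective f := by
    rw [injective_iff_map_eq_zero]
    intro φ hφ
    apply Subtype.ext
    apply h3 φ φ.2
    intro u hu
    exact LinearMap.congr_fun hφ ⟨u, hu⟩
  have d1 := LinearMap.finrank_le_finrank_of_injective he
  have d2 := LinearMap.finrank_le_finrank_of_injective hf
  rw [Subspace.dual_finrank_eq] at d1 d2
  have hs : Function.Surjective e :=
    (LinearMap.injective_iff_surjective_of_finrank_eq_finrank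
      (by rw [Subspace.dual_finrank_eq]; omega)).1 he
  obtain ⟨m, hm⟩ := hs (N.subtype.dualMap (Dual.eval (ZMod p) V v))
  refine ⟨m, m.2, fun φ hφ => ?_⟩
  have h := LinearMap.congr_fun hm ⟨φ, hφ⟩
  change φ (m : V) = φ v at h
  rw [map_sub, h, sub_self]

theorem g5a_isInternal [Finite V] {n : ℕ} (M : Fin n → Submodule (ZMod p) V)
    (N : Fin n → Submodule (ZMod p) (Dual (ZMod p) V))
    (h1 : ∀ i j, i ≠ j → ∀ φ ∈ N i, ∀ u ∈ M j, φ u = 0)
    (h2 : ∀ i, ∀ u ∈ M i, (∀ φ ∈ N i, φ u = 0) → u = 0)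
    (h3 : ∀ i, ∀ φ ∈ N i, (∀ u ∈ M i, φ u = 0) → φ = 0)
    (W : Fin (n + 1) → Submodule (ZMod p) V) (hW0 : W 0 = ⨅ i, (N i).dualCoannihilator)
    (hWs : ∀ j : Fin n, W j.succ = M j) : DirectSum.IsInternal W := by
  classical
  have hW₀mem : ∀ v, v ∈ W 0 ↔ ∀ i, ∀ φ ∈ N i, φ v = 0 := by
    intro v
    rw [hW0, Submodule.mem_iInf]
    simp only [Submodule.mem_dualCoannihilator]
  have hsum : ∀ (j : Fin n) (φ : Dual (ZMod p) V), φ ∈ N j → ∀ y : Fin n → V, (∀ i, y i ∈ M i) →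
      φ (∑ i, y i) = φ (y j) := by
    intro j φ hφ y hy
    rw [map_sum, Finset.sum_eq_single j]
    · intro i _ hij
      exact h1 j i (Ne.symm hij) φ hφ _ (hy i)
    · intro h; exact absurd (Finset.mem_univ j) h
  constructor
  · rw [injective_iff_map_eq_zero]
    intro x hx
    rw [DirectSum.coeAddMonoidHom_eq_dfinsuppSum, DFinsupp.sum_eq_sum_fintype _ (fun i => rfl),
      Fin.sum_univ_succ] at hx
    change ((x 0 : ↥(W 0)) : V) + ∑ i : Fin n, ((x i.succ : ↥(W i.succ)) : V) = 0 at hx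
    have hx0 : ((x 0 : ↥(W 0)) : V) ∈ W 0 := (x 0).2
    have hxs : ∀ j : Fin n, ((x j.succ : ↥(W j.succ)) : V) ∈ M j := fun j => hWs j ▸ (x j.succ).2
    have hz : ∀ j : Fin n, ((x j.succ : ↥(W j.succ)) : V) = 0 := by
      intro j
      apply h2 j _ (hxs j)
      intro φ hφ
      have h := congrArg φ hx
      rw [map_add, (hW₀mem _).1 hx0 j φ hφ, zero_add, map_zero,
        hsum j φ hφ (fun i => ((x i.succ : ↥(W i.succ)) : V)) hxs] at h
      exact h
    have hz0 : ((x 0 : ↥(W 0)) : V) = 0 := by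
      rw [Finset.sum_eq_zero (fun j _ => hz j), add_zero] at hx
      exact hx
    ext i
    refine Fin.cases ?_ (fun j => ?_) i
    · exact hz0
    · exact hz j
  · intro v
    choose m hm hmφ using fun i => g5a_proj (M i) (N i) (h2 i) (h3 i) v
    have hv0 : v - ∑ i, m i ∈ W 0 := by
      rw [hW₀mem]
      intro j φ hφ
      rw [map_sub, hsum j φ hφ m hm, ← map_sub]
      exact hmφ j φ hφ
    refine ⟨DirectSum.of (fun i => ↥(W i)) 0 ⟨v - ∑ i, m i, hv0⟩
      + ∑ j : Fin n, DirectSum.of (fun i => ↥(W i)) j.succ ⟨m j, (hWs j).symm ▸ hm j⟩, ?_⟩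
    rw [map_add, map_sum, DirectSum.coeAddMonoidHom_of]
    simp only [DirectSum.coeAddMonoidHom_of]
    abel

theorem isInternal_cons [Finite V] {n : ℕ} (M : Fin n → Submodule (ZMod p) V)
    (N : Fin n → Submodule (ZMod p) (Dual (ZMod p) V))
    (h1 : ∀ i j, i ≠ j → ∀ φ ∈ N i, ∀ u ∈ M j, φ u = 0)
    (h2 : ∀ i, ∀ u ∈ M i, (∀ φ ∈ N i, φ u = 0) → u = 0)
    (h3 : ∀ i, ∀ φ ∈ N i, (∀ u ∈ M i, φ u = 0) → φ = 0) :
    DirectSum.IsInternal
      (Fin.cons (⨅ i, (N i).dualCoannihilator) M : Fin (n + 1) → Submodule (ZMod p) V) :=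
  g5a_isInternal M N h1 h2 h3 _ rfl (fun _ => rfl)

end Cfsg.Agent.Lib.Helper72.Mc
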