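import Mathlib
import Cfsg.Agent.Lib.Helper83.McBase
import Cfsg.Agent.Lib.Helper83.McTv

/-! S5075 farm (helper83), piece G5b2 : the group assembly. -/

set_option autoImplicit false

namespace Cfsg.Agent.Lib.Helper72.Mc

open Module Cfsg.Agent.Lib.Helper83.Mc

variable {p : ℕ} [Fact p.Prime] {V : Type*} [AddCommGroup V] [Module (ZMod p) V]
variable {H : Subgroup (V ≃ₗ[ZMod p] V)}

/-- the pointwise stabiliser of a submodule. -/
def g5b2Fixer (W : Submodule (ZMod p) V) : Subgroup (V ≃ₗ[ZMod p] V) where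
  carrier := {g | ∀ v ∈ W, g v = v}
  one_mem' := fun _ _ => rfl
  mul_mem' := fun {a b} ha hb v hv => by rw [LinearEquiv.mul_apply, hb v hv, ha v hv]
  inv_mem' := fun {a} ha v hv => by
    calc a⁻¹ v = a⁻¹ (a v) := by rw [ha v hv]
      _ = v := by simp

theorem concl_of_comps (hH : Good H)
    (hinv : ∀ W : Submodule (ZMod p) V, Inv H W → ∀ h ∈ H, ∀ v ∈ W, h v ∈ W)
    {n : ℕ} (hn : 1 ≤ n) (C : Fin n → Set (V × Dual (ZMod p) V)) (hC : ∀ i, IsComp H (C i))
    (hcov : ∀ x ∈ TT H, ∃ i, x ∈ C i) (hdisj : ∀ i j, i ≠ j → Disjoint (C i) (C j))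
    (hcomm : ∀ i j, i ≠ j → ∀ a ∈ cK (C i), ∀ b ∈ cK (C j), a * b = b * a)
    (hint : DirectSum.IsInternal (Fin.cons (⨅ i, (cN (C i)).dualCoannihilator) (fun i => cM (C i)) :
      Fin (n + 1) → Submodule (ZMod p) V))
    (hrho : ∀ i, RhoOK (cK (C i)) (cM (C i))) : Concl H := by
  obtain ⟨W, hWdef⟩ : ∃ W : Fin (n + 1) → Submodule (ZMod p) V,
      W = Fin.cons (⨅ i, (cN (C i)).dualCoannihilator) (fun i => cM (C i)) := ⟨_, rfl⟩
  have hW0 : W 0 = ⨅ i, (cN (C i)).dualCoannihilator := by rw [hWdef]; rfl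
  have hWs : ∀ j : Fin n, W j.succ = cM (C j) := fun j => by rw [hWdef]; rfl
  rw [← hWdef] at hint
  have hW₀mem : ∀ v, v ∈ W 0 ↔ ∀ i, ∀ φ ∈ cN (C i), φ v = 0 := by
    intro v
    rw [hW0, Submodule.mem_iInf]
    simp only [Submodule.mem_dualCoannihilator]
  -- invariance
  have hInv : ∀ i, Inv H (W i) := by
    intro i
    refine Fin.cases ?_ (fun j => ?_) i
    · intro x hx
      obtain ⟨i, hi⟩ := hcov x hx
      exact Or.inr (fun v hv => (hW₀mem v).1 hv i _ (snd_mem_cN hi))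
    · rw [hWs]; exact inv_cM (hC j)
  have hmap : ∀ h ∈ H, ∀ i, (W i).map (h : V →ₗ[ZMod p] V) = W i := by
    intro h hh i
    apply le_antisymm
    · rintro _ ⟨v, hv, rfl⟩
      exact hinv _ (hInv i) h hh v hv
    · intro v hv
      refine ⟨h⁻¹ v, hinv _ (hInv i) h⁻¹ (H.inv_mem hh) v hv, ?_⟩
      simp
  have hKH : ∀ j, cK (C j) ≤ H := fun j => cK_le (hC j).sub
  have hsup : ⨆ j, cK (C j) = H := by
    apply le_antisymm (iSup_le hKH)
    calc H = Subgroup.closure {g | ∃ x ∈ TT H, ∀ v, g v = v + x.2 v • x.1} := hH.gen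
      _ ≤ ⨆ j, cK (C j) := by
        rw [Subgroup.closure_le]
        rintro g ⟨x, hx, hg⟩
        obtain ⟨i, hi⟩ := hcov x hx
        exact (le_iSup (fun j => cK (C j)) i) (Subgroup.subset_closure ⟨x, hi, hg⟩)
  have hnorm : ∀ j, H ≤ Subgroup.normalizer (cK (C j) : Set (V ≃ₗ[ZMod p] V)) := by
    intro j
    rw [← hsup]
    apply iSup_le
    intro i
    by_cases hij : i = j
    · subst hij; exact Subgroup.le_normalizer
    · refine le_trans ?_ (Subgroup.centralizer_le_normalizer (cK (C j) : Set (V ≃ₗ[ZMod p] V)))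
      intro a ha
      rw [Subgroup.mem_centralizer_iff]
      intro b hb
      exact (hcomm i j hij a ha b hb).symm
  have hperp : ∀ j k, k ≠ j → ∀ v ∈ cM (C k), ∀ φ ∈ cN (C j), φ v = 0 := by
    intro j k hkj v hv φ hφ
    induction hv using Submodule.span_induction with
    | mem v hv =>
      obtain ⟨x, hx, rfl⟩ := hv
      have hxj : x ∉ C j := fun h => (Set.disjoint_left.1 (hdisj k j hkj)) hx h
      exact (perp_of_notMem (hC j) ((hC k).sub hx) hxj).2 φ hφ
    | zero => simp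
    | add a b _ _ ha hb => simp [ha, hb]
    | smul c a _ ha => simp [ha]
  have hfix : ∀ j, ∀ h ∈ cK (C j), ∀ i : Fin (n + 1), i ≠ j.succ → ∀ v ∈ W i, h v = v := by
    intro j h hh i
    refine Fin.cases ?_ (fun k => ?_) i
    · intro _ v hv
      exact cK_fix hh ((hW₀mem v).1 hv j)
    · intro hk v hv
      rw [hWs] at hv
      have hkj : k ≠ j := fun h => hk (by rw [h])
      exact cK_fix hh (hperp j k hkj v hv)
  refine ⟨n, W, fun j => cK (C j), hn, hint, hmap,
    fun j => ⟨hKH j, (Subgroup.normal_subgroupOf_iff_le_normalizer (hKH j)).2 (hnorm j)⟩, hsup, ?_,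
    hcomm, hfix, fun j => by rw [hWs]; exact hrho j⟩
  intro j
  rw [eq_bot_iff]
  intro g hg
  obtain ⟨hg1, hg2⟩ := Subgroup.mem_inf.1 hg
  have hle : (⨆ j' ∈ {j' : Fin n | j' ≠ j}, cK (C j')) ≤ g5b2Fixer (W j.succ) := by
    apply iSup₂_le
    intro j' hj' a ha v hv
    exact hfix j' a ha j.succ (fun h => hj' (Fin.succ_injective _ h).symm) v hv
  have hall : ∀ i, W i ≤ LinearMap.eqLocus (g : V →ₗ[ZMod p] V) LinearMap.id := by
    intro i v hv
    rw [LinearMap.mem_eqLocus]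
    by_cases hi : i = j.succ
    · subst hi; exact hle hg2 v hv
    · exact hfix j g hg1 i hi v hv
  have htop : (⊤ : Submodule (ZMod p) V) ≤ LinearMap.eqLocus (g : V →ₗ[ZMod p] V) LinearMap.id := by
    rw [← hint.submodule_iSup_eq_top]
    exact iSup_le hall
  rw [Subgroup.mem_bot]
  ext v
  exact (LinearMap.mem_eqLocus.1 (htop (Submodule.mem_top : v ∈ ⊤)))

end Cfsg.Agent.Lib.Helper72.Mc
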