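import Mathlib
import Cfsg.Agent.Lib.Helper83.McBase
import Cfsg.Agent.Lib.Helper83.McTv

/-! S5075 farm (helper83), piece G5d : connected components of the non-commuting graph. -/

set_option autoImplicit false

namespace Cfsg.Agent.Lib.Helper72.Mc

open Module Cfsg.Agent.Lib.Helper83.Mc

variable {p : ℕ} [Fact p.Prime] {V : Type*} [AddCommGroup V] [Module (ZMod p) V]

theorem g5d_adj_symm {x y : V × Dual (ZMod p) V} (h : adj x y) : adj y x := Or.symm h

theorem exists_comps [Finite V] (H : Subgroup (V ≃ₗ[ZMod p] V)) :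
    ∃ (n : ℕ) (C : Fin n → Set (V × Dual (ZMod p) V)), (∀ i, IsComp H (C i)) ∧
      (∀ x ∈ TT H, ∃ i, x ∈ C i) ∧ (∀ i j, i ≠ j → Disjoint (C i) (C j)) := by
  classical
  have : Finite (Dual (ZMod p) V) := Module.finite_of_finite (ZMod p)
  let s : Setoid ↥(TT H) := Relation.EqvGen.setoid (fun x y : ↥(TT H) => adj x.1 y.1)
  have : Finite (Quotient s) := Quotient.finite s
  obtain ⟨n, ⟨e⟩⟩ := Finite.exists_equiv_fin (Quotient s)
  let C' : Quotient s → Set (V × Dual (ZMod p) V) :=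
    fun q => {x | ∃ h : x ∈ TT H, (Quotient.mk s ⟨x, h⟩ : Quotient s) = q}
  have hcomp : ∀ q, IsComp H (C' q) := by
    intro q
    have hclosed : ∀ x ∈ C' q, ∀ y ∈ TT H, adj x y → y ∈ C' q := by
      rintro x ⟨hx, hxq⟩ y hy hadj
      refine ⟨hy, ?_⟩
      rw [← hxq]
      exact Quotient.sound (s := s) (Relation.EqvGen.rel _ _ (g5d_adj_symm hadj))
    refine ⟨?_, ?_, hclosed, ?_⟩
    · obtain ⟨x, hx⟩ := Quotient.exists_rep q
      exact ⟨x.1, x.2, hx⟩
    · rintro x ⟨hx, -⟩; exact hx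
    · intro S hS hne hcl
      apply Set.Subset.antisymm hS
      obtain ⟨a, ha⟩ := hne
      obtain ⟨haT, haq⟩ := hS ha
      rintro y ⟨hyT, hyq⟩
      have hrel : Relation.EqvGen (fun x y : ↥(TT H) => adj x.1 y.1) ⟨a, haT⟩ ⟨y, hyT⟩ :=
        Quotient.exact (s := s) (haq.trans hyq.symm)
      have key : ∀ u v : ↥(TT H), Relation.EqvGen (fun x y : ↥(TT H) => adj x.1 y.1) u v →
          (u.1 ∈ S ↔ v.1 ∈ S) := by
        intro u v huv
        induction huv with
        | rel u v h =>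
          constructor
          · intro hu
            exact hcl _ hu _ (hclosed _ (hS hu) _ v.2 h) h
          · intro hv
            exact hcl _ hv _ (hclosed _ (hS hv) _ u.2 (g5d_adj_symm h)) (g5d_adj_symm h)
        | refl u => exact Iff.rfl
        | symm u v _ ih => exact ih.symm
        | trans u v w _ _ ih1 ih2 => exact ih1.trans ih2
      exact (key _ _ hrel).1 ha
  refine ⟨n, fun i => C' (e.symm i), fun i => hcomp _, ?_, ?_⟩
  · intro x hx
    exact ⟨e (Quotient.mk s ⟨x, hx⟩), hx, by simp⟩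
  · intro i j hij
    rw [Set.disjoint_left]
    rintro x ⟨hx, h1⟩ ⟨_, h2⟩
    apply hij
    apply e.symm.injective
    rw [← h1, ← h2]

end Cfsg.Agent.Lib.Helper72.Mc
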