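import Mathlib
import Cfsg.Agent.Lib.Helper83.McBase
import Cfsg.Agent.Lib.Helper83.McTv

/-! S5075 farm (helper83), piece G5e : the trivial group. -/

set_option autoImplicit false

namespace Cfsg.Agent.Lib.Helper72.Mc

open Module Cfsg.Agent.Lib.Helper83.Mc

variable {p : ℕ} [Fact p.Prime] {V : Type*} [AddCommGroup V] [Module (ZMod p) V]

theorem g5e_rhoOK : RhoOK (⊥ : Subgroup (V ≃ₗ[ZMod p] V)) (⊥ : Submodule (ZMod p) V) := by
  have hsub : ∀ f : ↥(⊥ : Submodule (ZMod p) V) ≃ₗ[ZMod p] ↥(⊥ : Submodule (ZMod p) V), f = 1 := by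
    intro f
    ext v
  refine ⟨1, ?_, Or.inl ?_⟩
  · intro h v
    have hv : (v : V) = 0 := (Submodule.mem_bot _).1 v.2
    rw [(Submodule.mem_bot _).1 (Subtype.property _), hv, map_zero]
  · ext f
    rw [hsub f]
    simp only [SetLike.mem_coe, Set.mem_ofPred_eq]
    constructor
    · intro _
      exact LinearMap.det_id
    · intro _
      exact one_mem _

theorem concl_bot : Concl (⊥ : Subgroup (V ≃ₗ[ZMod p] V)) := by
  obtain ⟨W, hWdef⟩ : ∃ W : Fin (1 + 1) → Submodule (ZMod p) V,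
      W = Fin.cons ⊤ (fun _ => ⊥) := ⟨_, rfl⟩
  have hW0 : W 0 = ⊤ := by rw [hWdef]; rfl
  have hWs : ∀ j : Fin 1, W j.succ = ⊥ := fun j => by rw [hWdef]; rfl
  have hW1 : W 1 = ⊥ := hWs 0
  refine ⟨1, W, fun _ => ⊥, le_rfl, ?_, ?_, ?_, ?_, ?_, ?_, ?_, ?_⟩
  · rw [DirectSum.isInternal_submodule_iff_isCompl W (i := 0) (j := 1) (by decide) (by
      ext i; fin_cases i <;> simp), hW0, hW1]
    exact isCompl_top_bot
  · intro h hh i
    rw [Subgroup.mem_bot] at hh
    subst hh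
    exact Submodule.map_id _
  · intro j
    refine ⟨le_rfl, ?_⟩
    rw [Subgroup.bot_subgroupOf]
    infer_instance
  · simp
  · intro j
    simp
  · intro j j' _ a ha b hb
    rw [Subgroup.mem_bot] at ha hb
    rw [ha, hb]
  · intro j h hh i _ v _
    rw [Subgroup.mem_bot] at hh
    rw [hh]; rfl
  · intro j
    rw [hWs]
    exact g5e_rhoOK

end Cfsg.Agent.Lib.Helper72.Mc
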