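import Mathlib
import Cfsg.Agent.Lib.Helper83.McBase
import Cfsg.Agent.Lib.Helper83.McTv

/-! S5075 farm (helper83), piece T4b : additive extension to a linear map. -/

set_option autoImplicit false
set_option linter.unusedVariables false

namespace Cfsg.Agent.Lib.Helper72.Mc

open Module Cfsg.Agent.Lib.Helper83.Mc

variable {p : ℕ} [Fact p.Prime] {M N : Type*} [AddCommGroup M] [Module (ZMod p) M]
  [AddCommGroup N] [Module (ZMod p) N]
  {B : N →ₗ[ZMod p] M →ₗ[ZMod p] ZMod p} {A : M → N → Prop}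

theorem exists_form (S : Sys B A) (h2 : (2 : ZMod p) ≠ 0) (hP : ∀ u, u ≠ 0 → Pt A u)
    (thin : ∀ u φ φ', u ≠ 0 → φ ≠ 0 → A u φ → A u φ' → ∃ c : ZMod p, φ' = c • φ)
    {e : M} {ε : N} (he : e ≠ 0) (hε : ε ≠ 0) (heε : A e ε) (β : M → N)
    (h1 : ∀ x, B ε x ≠ 0 → A x (β x) ∧ B (β x) e = - B ε x)
    (h3 : ∀ x y, B ε x ≠ 0 → B ε y ≠ 0 → B ε (x + y) ≠ 0 → β (x + y) = β x + β y)
    (h4 : ∀ z x ξ, B ε z ≠ 0 → B ε x = 0 → x ≠ 0 → A x ξ → B ξ z ≠ 0 →
        A x (β (z + x) - β z) ∧ β (z + x) ≠ β z) :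
    ∃ Bf : M →ₗ[ZMod p] N, (∀ x, x ≠ 0 → Bf x ≠ 0) ∧ (∀ x, A x (Bf x)) := by
  obtain ⟨w, hw⟩ : ∃ w, B ε w ≠ 0 := by
    by_contra hcon
    push Not at hcon
    exact hε (S.r1r e ε heε he hcon)
  obtain ⟨e', he'⟩ : ∃ e', B ε e' = 1 :=
    ⟨(B ε w)⁻¹ • w, by rw [map_smul, smul_eq_mul, inv_mul_cancel₀ hw]⟩
  obtain ⟨k, hkdef⟩ : ∃ k : M → M, ∀ x, k x = x - B ε x • e' := ⟨_, fun _ => rfl⟩
  have hk0 : ∀ x, B ε (k x) = 0 := by
    intro x; rw [hkdef, map_sub, map_smul, he', smul_eq_mul, mul_one, sub_self]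
  have hkadd : ∀ x y, k (x + y) = k x + k y := by
    intro x y; rw [hkdef, hkdef, hkdef, map_add, add_smul]; abel
  obtain ⟨γ, hγdef⟩ : ∃ γ : M → N, ∀ z, γ z = β (e' + z) - β e' := ⟨_, fun _ => rfl⟩
  have h11 : (1 : ZMod p) + 1 ≠ 0 := by rw [one_add_one_eq_two]; exact h2
  have hγadd : ∀ z z', B ε z = 0 → B ε z' = 0 → γ (z + z') = γ z + γ z' := by
    intro z z' hz hz'
    have a1 : β ((e' + z) + (e' + z')) = β (e' + z) + β (e' + z') :=
      h3 _ _ (by rw [map_add, he', hz, add_zero]; exact one_ne_zero)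
        (by rw [map_add, he', hz', add_zero]; exact one_ne_zero)
        (by simp only [map_add, he', hz, hz', add_zero]; exact h11)
    have a2 : β ((e' + (z + z')) + e') = β (e' + (z + z')) + β e' :=
      h3 _ _ (by simp only [map_add, he', hz, hz', add_zero]; exact one_ne_zero)
        (by rw [he']; exact one_ne_zero)
        (by simp only [map_add, he', hz, hz', add_zero]; exact h11)
    have e1 : (e' + z) + (e' + z') = (e' + (z + z')) + e' := by abel
    rw [e1, a2] at a1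
    have a3 : β (e' + (z + z')) = β (e' + z) + β (e' + z') - β e' := eq_sub_of_add_eq a1
    rw [hγdef, hγdef, hγdef, a3]; abel
  obtain ⟨b, hbdef⟩ : ∃ b : M → N, ∀ x, b x = B ε x • β e' + γ (k x) := ⟨_, fun _ => rfl⟩
  have hbadd : ∀ x y, b (x + y) = b x + b y := by
    intro x y
    rw [hbdef, hbdef, hbdef, hkadd, hγadd _ _ (hk0 x) (hk0 y), map_add, add_smul]; abel
  obtain ⟨Bf, hBf⟩ : ∃ Bf : M →ₗ[ZMod p] N, ∀ x, Bf x = b x :=
    ⟨(AddMonoidHom.mk' b hbadd).toZModLinearMap p, fun _ => rfl⟩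
  have hne : ∀ j : ℕ, 0 < j → j < p → ((j : ℕ) : ZMod p) ≠ 0 := by
    intro j h0 hj h
    rw [ZMod.natCast_eq_zero_iff] at h
    exact absurd (Nat.le_of_dvd h0 h) (by omega)
  have hnat : ∀ m : ℕ, m + 1 < p → ∀ z, B ε z = 0 →
      β (((m + 1 : ℕ) : ZMod p) • e' + z) = ((m + 1 : ℕ) : ZMod p) • β e' + γ z := by
    intro m
    induction m with
    | zero =>
      intro _ z hz
      rw [hγdef]; simp
    | succ m ih =>
      intro hm z hz
      have hval : ∀ c : ZMod p, B ε (c • e' + z) = c := by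
        intro c; rw [map_add, map_smul, he', hz, smul_eq_mul, mul_one, add_zero]
      have e1 : ((m + 1 + 1 : ℕ) : ZMod p) • e' + z = (((m + 1 : ℕ) : ZMod p) • e' + z) + e' := by
        rw [Nat.cast_succ (m + 1), add_smul, one_smul]; abel
      have a := h3 (((m + 1 : ℕ) : ZMod p) • e' + z) e'
        (by rw [hval]; exact hne _ (by omega) (by omega))
        (by rw [he']; exact one_ne_zero)
        (by rw [← e1, hval]; exact hne _ (by omega) hm)
      rw [e1, a, ih (by omega) z hz, Nat.cast_succ (m + 1), add_smul, one_smul]; abel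
  have hβ : ∀ x, B ε x ≠ 0 → Bf x = β x := by
    intro x hx
    have hv0 : 0 < (B ε x).val := by
      rw [Nat.pos_iff_ne_zero, Ne, ZMod.val_eq_zero]; exact hx
    have hvp : (B ε x).val < p := ZMod.val_lt _
    obtain ⟨m, hm⟩ : ∃ m, (B ε x).val = m + 1 := ⟨(B ε x).val - 1, by omega⟩
    have hc : ((m + 1 : ℕ) : ZMod p) = B ε x := by rw [← hm, ZMod.natCast_zmod_val]
    have h := hnat m (by omega) (k x) (hk0 x)
    rw [hc] at h
    have e1 : B ε x • e' + k x = x := by rw [hkdef]; abel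
    rw [e1] at h
    rw [hBf, hbdef, h]
  have key : ∀ x, x ≠ 0 → Bf x ≠ 0 ∧ A x (Bf x) := by
    intro x hx0
    by_cases hx : B ε x = 0
    · obtain ⟨-, ξ, hξ0, hξ⟩ := hP x hx0
      obtain ⟨z₂, hz₂⟩ : ∃ z, B ξ z ≠ 0 := by
        by_contra hcon
        push Not at hcon
        exact hξ0 (S.r1r x ξ hξ hx0 hcon)
      obtain ⟨z, hz1, hz2⟩ : ∃ z, B ε z ≠ 0 ∧ B ξ z ≠ 0 := by
        by_cases c1 : B ξ w = 0
        · by_cases c2 : B ε z₂ = 0
          · exact ⟨w + z₂, by rw [map_add, c2, add_zero]; exact hw,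
              by rw [map_add, c1, zero_add]; exact hz₂⟩
          · exact ⟨z₂, c2, hz₂⟩
        · exact ⟨w, hw, c1⟩
      obtain ⟨g1, g2⟩ := h4 z x ξ hz1 hx hx0 hξ hz2
      have e1 : Bf x = β (z + x) - β z := by
        rw [← hβ z hz1, ← hβ (z + x) (by rw [map_add, hx, add_zero]; exact hz1), map_add]; abel
      rw [e1]
      exact ⟨sub_ne_zero.2 g2, g1⟩
    · rw [hβ x hx]
      obtain ⟨g1, g2⟩ := h1 x hx
      refine ⟨?_, g1⟩
      intro h0
      rw [h0, map_zero, LinearMap.zero_apply] at g2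
      exact hx (neg_eq_zero.1 g2.symm)
  refine ⟨Bf, fun x hx => (key x hx).1, fun x => ?_⟩
  by_cases hx : x = 0
  · subst hx; exact S.zl _
  · exact (key x hx).2

end Cfsg.Agent.Lib.Helper72.Mc
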